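import Mathlib

/-!
# An odd abelian group of automorphisms of an abelian group of order at most sixteen

Either it acts freely outside its fixed points, or it has order nine and the group is elementary
abelian of order sixteen.
-/

set_option autoImplicit false

namespace CfsgLib.Blocks.AbelianSmallTwo

/-- A group of odd order at most fifteen is commutative. -/
theorem comm_of_odd_card_le {H : Type*} [Group H] [Finite H] (hodd : Odd (Nat.card H))
    (hle : Nat.card H ≤ 15) (a b : H) : a * b = b * a := by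
  have hpr : ∀ r : ℕ, r.Prime → Nat.card H = r → a * b = b * a := fun r hr h => by
    haveI : Fact r.Prime := ⟨hr⟩
    haveI := isCyclic_of_prime_card h
    exact IsCyclic.commGroup.mul_comm a b
  have hmem : Nat.card H = 1 ∨ Nat.card H = 3 ∨ Nat.card H = 5 ∨ Nat.card H = 7 ∨ Nat.card H = 9 ∨
      Nat.card H = 11 ∨ Nat.card H = 13 ∨ Nat.card H = 15 := by
    obtain ⟨k, hk⟩ := hodd
    omega
  rcases hmem with h | h | h | h | h | h | h | h
  · haveI := (Nat.card_eq_one_iff_unique.1 h).1
    exact Subsingleton.elim _ _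
  · exact hpr 3 (by norm_num) h
  · exact hpr 5 (by norm_num) h
  · exact hpr 7 (by norm_num) h
  · haveI : Fact (Nat.Prime 3) := ⟨by norm_num⟩
    exact (IsPGroup.isMulCommutative_of_card_eq_prime_sq (p := 3) (by rw [h]; norm_num)).is_comm.comm a b
  · exact hpr 11 (by norm_num) h
  · exact hpr 13 (by norm_num) h
  · haveI : Fact (Nat.Prime 3) := ⟨by norm_num⟩
    haveI : Fact (Nat.Prime 5) := ⟨by norm_num⟩
    obtain ⟨P⟩ := (inferInstance : Nonempty (Sylow 3 H))
    obtain ⟨Q⟩ := (inferInstance : Nonempty (Sylow 5 H))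
    have hP : Nat.card P = 3 := by
      rw [Sylow.card_eq_multiplicity, h]
      decide +kernel
    have hQ : Nat.card Q = 5 := by
      rw [Sylow.card_eq_multiplicity, h]
      decide +kernel
    have hiP : (P : Subgroup H).index = 5 := by
      have := (P : Subgroup H).card_mul_index
      rw [h, hP] at this
      omega
    have hiQ : (Q : Subgroup H).index = 3 := by
      have := (Q : Subgroup H).card_mul_index
      rw [h, hQ] at this
      omega
    have hP1 : Nat.card (Sylow 3 H) = 1 := by
      have h1 := P.card_dvd_index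
      rw [hiP] at h1
      have h2 := card_sylow_modEq_one 3 H
      rcases (Nat.dvd_prime (by norm_num)).1 h1 with h3 | h3
      · exact h3
      · rw [h3] at h2
        exact absurd h2 (by decide)
    have hQ1 : Nat.card (Sylow 5 H) = 1 := by
      have h1 := Q.card_dvd_index
      rw [hiQ] at h1
      have h2 := card_sylow_modEq_one 5 H
      rcases (Nat.dvd_prime (by norm_num)).1 h1 with h3 | h3
      · exact h3
      · rw [h3] at h2
        exact absurd h2 (by decide)
    haveI : Subsingleton (Sylow 3 H) := (Nat.card_eq_one_iff_unique.1 hP1).1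
    haveI : Subsingleton (Sylow 5 H) := (Nat.card_eq_one_iff_unique.1 hQ1).1
    haveI : (P : Subgroup H).Normal := P.normal_of_subsingleton
    haveI : (Q : Subgroup H).Normal := Q.normal_of_subsingleton
    have key : ∀ (N : Subgroup H) [N.Normal] (r : ℕ), r.Prime → N.index = r →
        a * b * a⁻¹ * b⁻¹ ∈ N := by
      intro N _ r hr hi
      haveI : Fact r.Prime := ⟨hr⟩
      haveI := isCyclic_of_prime_card (α := H ⧸ N) (p := r) (by rw [← Subgroup.index_eq_card]; exact hi)
      rw [← QuotientGroup.eq_one_iff, QuotientGroup.mk_mul, QuotientGroup.mk_mul,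
        QuotientGroup.mk_mul, QuotientGroup.mk_inv, QuotientGroup.mk_inv,
        IsCyclic.commGroup.mul_comm (a : H ⧸ N) (b : H ⧸ N)]
      group
    have hx : a * b * a⁻¹ * b⁻¹ ∈ (P : Subgroup H) ⊓ (Q : Subgroup H) :=
      ⟨key _ 5 (by norm_num) hiP, key _ 3 (by norm_num) hiQ⟩
    have hdisj : (P : Subgroup H) ⊓ (Q : Subgroup H) = ⊥ :=
      Subgroup.inf_eq_bot_of_coprime (by rw [hP, hQ]; norm_num)
    rw [hdisj, Subgroup.mem_bot, mul_inv_eq_one, mul_inv_eq_iff_eq_mul] at hx
    exact hx

variable {V : Type*} [CommGroup V]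

/-- The elements fixed by a set of automorphisms. -/
def fixSub (A : Set (MulAut V)) : Subgroup V where
  carrier := {v | ∀ t ∈ A, t v = v}
  one_mem' := fun t _ => map_one t
  mul_mem' := fun {a b} ha hb t ht => by rw [map_mul, ha t ht, hb t ht]
  inv_mem' := fun {a} ha t ht => by rw [map_inv, ha t ht]

theorem mem_fixSub {A : Set (MulAut V)} {v : V} : v ∈ fixSub A ↔ ∀ t ∈ A, t v = v := Iff.rfl

/-- An automorphism of odd order fixing a coset of fixed elements fixes its members. -/
theorem apply_eq_of_fixed_coset (hV : IsPGroup 2 V) {t : MulAut V} (ht : Odd (orderOf t)) {v c : V}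
    (hc : t c = c) (htv : t v = v * c) : t v = v := by
  have hpow : ∀ m : ℕ, (t ^ m) v = v * c ^ m := by
    intro m
    induction m with
    | zero => simp
    | succ m ih =>
      rw [pow_succ', MulAut.mul_apply, ih, map_mul, map_pow, hc, htv, pow_succ']
      rw [mul_assoc]
  have h1 := hpow (orderOf t)
  rw [pow_orderOf_eq_one, MulAut.one_apply, left_eq_mul] at h1
  obtain ⟨k, hk⟩ := hV c
  have hd1 : orderOf c ∣ 2 ^ k := orderOf_dvd_of_pow_eq_one hk
  have hd2 : orderOf c ∣ orderOf t := orderOf_dvd_of_pow_eq_one h1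
  have : orderOf c = 1 :=
    Nat.eq_one_of_dvd_coprimes ((Nat.coprime_two_left.2 ht).pow_left k) hd1 hd2
  rw [htv, orderOf_eq_one_iff.1 this, mul_one]

theorem apply_eq_of_inv_mul_mem (hV : IsPGroup 2 V) {t : MulAut V} (ht : Odd (orderOf t))
    {D : Subgroup V} (hD : ∀ d ∈ D, t d = d) {v : V} (hv : v⁻¹ * t v ∈ D) : t v = v :=
  apply_eq_of_fixed_coset hV ht (hD _ hv) (by rw [mul_inv_cancel_left])

variable [Finite V] {A : Subgroup (MulAut V)}

theorem odd_orderOf (hA : Odd (Nat.card A)) {t : MulAut V} (ht : t ∈ A) : Odd (orderOf t) := by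
  have h := orderOf_dvd_natCard (⟨t, ht⟩ : A)
  rw [Subgroup.orderOf_mk] at h
  exact hA.of_dvd_nat h

/-- An automorphism of odd order fixing a subgroup of index at most two fixes everything. -/
theorem fixes_of_index_le_two (hV : IsPGroup 2 V) {t : MulAut V} (ht : Odd (orderOf t))
    {D : Subgroup V} (hD : ∀ d ∈ D, t d = d) (hi : D.index ≤ 2) (v : V) : t v = v := by
  by_cases hv : v ∈ D
  · exact hD v hv
  have h2 : D.index = 2 := by
    have h0 := D.index_ne_zero_of_finite
    have h1 : D.index ≠ 1 := fun h => hv (by rw [Subgroup.index_eq_one.1 h]; trivial)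
    omega
  refine apply_eq_of_inv_mul_mem hV ht hD ?_
  rw [Subgroup.mul_mem_iff_of_index_two h2, Subgroup.inv_mem_iff]
  refine ⟨fun h => absurd h hv, fun h => absurd ?_ hv⟩
  have := hD _ h
  exact t.injective this ▸ h

/-- **The dichotomy.** -/
theorem free_or_nine (hV : IsPGroup 2 V) (hV16 : Nat.card V ≤ 16) (hA : Odd (Nat.card A))
    (hAc : ∀ s ∈ A, ∀ t ∈ A, s * t = t * s) :
    (∀ t ∈ A, t ≠ 1 → ∀ v, t v = v → v ∈ fixSub (A : Set (MulAut V))) ∨
      (Nat.card V = 16 ∧ (∀ v : V, v ^ 2 = 1) ∧ Nat.card A = 9) := by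
  classical
  refine or_iff_not_imp_left.2 fun hnot => ?_
  push Not at hnot
  obtain ⟨t, htA, ht1, v, htv, hvC⟩ := hnot
  set C := fixSub (A : Set (MulAut V)) with hCdef
  set D := fixSub ({t} : Set (MulAut V)) with hDdef
  have hDt : ∀ d ∈ D, t d = d := fun d hd => hd t rfl
  have hCD : C ≤ D := fun c hc u hu => by rw [Set.mem_singleton_iff.1 hu]; exact hc t htA
  have hvD : v ∈ D := fun u hu => by rw [Set.mem_singleton_iff.1 hu]; exact htv
  have hDinv : ∀ s ∈ A, ∀ d ∈ D, s d ∈ D := by
    intro s hs d hd u hu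
    rw [Set.mem_singleton_iff.1 hu]
    rw [← MulAut.mul_apply, ← hAc s hs t htA, MulAut.mul_apply, hDt d hd]
  have hDi : 4 ≤ D.index := by
    by_contra hlt
    obtain ⟨k, hk⟩ := (hV.index D)
    have hle : D.index ≤ 2 := by
      rw [hk] at hlt ⊢
      rcases k with _ | _ | k
      · norm_num
      · norm_num
      · exact absurd hlt (not_not.2 (by rw [pow_succ, pow_succ]; have := Nat.one_le_two_pow (n := k); omega))
    exact ht1 (MulEquiv.ext fun w => fixes_of_index_le_two hV (odd_orderOf hA htA) hDt hle w)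
  have hCi : 4 ≤ C.relIndex D := by
    by_contra hlt
    obtain ⟨k, hk⟩ := (hV.to_subgroup D).index (C.subgroupOf D)
    have hle : (C.subgroupOf D).index ≤ 2 := by
      change ¬ 4 ≤ (C.subgroupOf D).index at hlt
      rw [hk] at hlt ⊢
      rcases k with _ | _ | k
      · norm_num
      · norm_num
      · exact absurd hlt (not_not.2 (by rw [pow_succ, pow_succ]; have := Nat.one_le_two_pow (n := k); omega))
    rcases Nat.lt_or_ge (C.subgroupOf D).index 2 with h1 | h2
    · have h0 : (C.subgroupOf D).index ≠ 0 := Subgroup.index_ne_zero_of_finite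
      have : (C.subgroupOf D) = ⊤ := Subgroup.index_eq_one.1 (by omega)
      exact hvC (Subgroup.mem_subgroupOf.1 (this ▸ Subgroup.mem_top (⟨v, hvD⟩ : D)))
    · have h2' : (C.subgroupOf D).index = 2 := by omega
      refine hvC fun s hs => apply_eq_of_inv_mul_mem hV (odd_orderOf hA hs) (D := C)
        (fun d hd => hd s hs) ?_
      have hiff := Subgroup.mul_mem_iff_of_index_two h2' (a := (⟨v, hvD⟩ : D)⁻¹)
        (b := ⟨s v, hDinv s hs v hvD⟩)
      simp only [Subgroup.mem_subgroupOf, Subgroup.coe_mul, InvMemClass.coe_inv,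
        Subgroup.inv_mem_iff] at hiff
      rw [hiff]
      refine ⟨fun h => absurd h hvC, fun h => absurd ?_ hvC⟩
      exact s.injective (h s hs) ▸ h
  have hmul := D.card_mul_index
  have hCcard : Nat.card C * C.relIndex D = Nat.card D := by
    rw [Subgroup.relIndex, ← (C.subgroupOf D).card_mul_index,
      Nat.card_congr (Subgroup.subgroupOfEquivOfLe hCD).toEquiv]
  have hCpos : 0 < Nat.card C := Nat.card_pos
  have hC1 : Nat.card C = 1 ∧ Nat.card D = 4 ∧ D.index = 4 ∧ Nat.card V = 16 := by
    have h1 : Nat.card C * C.relIndex D * D.index = Nat.card V := by rw [hCcard, hmul]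
    have h2 : Nat.card C * 4 * 4 ≤ Nat.card C * C.relIndex D * D.index :=
      Nat.mul_le_mul (Nat.mul_le_mul le_rfl hCi) hDi
    have hc : Nat.card C = 1 := by omega
    rw [hc, one_mul] at h1 hCcard
    have hr : C.relIndex D = 4 := by nlinarith
    have hd : D.index = 4 := by nlinarith
    refine ⟨hc, by omega, hd, ?_⟩
    rw [← h1, hr, hd]
  obtain ⟨hC, hD4, hD4', hV16'⟩ := hC1
  have hCbot : C = ⊥ := Subgroup.eq_bot_of_card_eq _ hC
  -- the kernel of the action on `D`
  let K : Subgroup A :=
    { carrier := {s | ∀ d ∈ D, (s : MulAut V) d = d}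
      one_mem' := fun d _ => rfl
      mul_mem' := fun {a b} ha hb d hd => by
        rw [Subgroup.coe_mul, MulAut.mul_apply, hb d hd, ha d hd]
      inv_mem' := fun {a} ha d hd => by
        conv_lhs => rw [← ha d hd]
        rw [← MulAut.mul_apply, InvMemClass.coe_inv, inv_mul_cancel, MulAut.one_apply] }
  have hK : ∀ (s : A), s ∈ K ↔ ∀ d ∈ D, (s : MulAut V) d = d := fun s => Iff.rfl
  -- every nonidentity element of `D` has stabilizer `K`
  have hstab : ∀ d ∈ D, d ≠ 1 → MulAction.stabilizer A d = K := by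
    intro d hd hd1
    ext s
    rw [MulAction.mem_stabilizer_iff, hK]
    refine ⟨fun hs e he => ?_, fun hs => hs d hd⟩
    have hF : ((fixSub ({(s : MulAut V)} : Set (MulAut V))).subgroupOf D).index ≤ 2 := by
      set F := (fixSub ({(s : MulAut V)} : Set (MulAut V))).subgroupOf D
      have hF1 : Nat.card F ≠ 1 := fun h => by
        have hbot := Subgroup.eq_bot_of_card_eq _ h
        have : (⟨d, hd⟩ : D) ∈ F := fun u hu => by rw [Set.mem_singleton_iff.1 hu]; exact hs
        rw [hbot, Subgroup.mem_bot] at this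
        exact hd1 (congrArg Subtype.val this)
      have hm := F.card_mul_index
      rw [hD4] at hm
      have := Nat.card_pos (α := F)
      by_contra hlt
      have : 2 * 3 ≤ Nat.card F * F.index := Nat.mul_le_mul (by omega) (by omega)
      omega
    have hDs : ∀ e ∈ D, (s : MulAut V) e ∈ D := hDinv _ s.2
    let s' : MulAut D :=
      { toFun := fun e => ⟨(s : MulAut V) e, hDs e e.2⟩
        invFun := fun e => ⟨((s⁻¹ : A) : MulAut V) e, hDinv _ (s⁻¹ : A).2 e e.2⟩
        left_inv := fun e => Subtype.ext (by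
          show ((s⁻¹ : A) : MulAut V) ((s : MulAut V) e) = e
          rw [← MulAut.mul_apply, InvMemClass.coe_inv, inv_mul_cancel, MulAut.one_apply])
        right_inv := fun e => Subtype.ext (by
          show (s : MulAut V) (((s⁻¹ : A) : MulAut V) e) = e
          rw [← MulAut.mul_apply, InvMemClass.coe_inv, mul_inv_cancel, MulAut.one_apply])
        map_mul' := fun a b => Subtype.ext (by simp) }
    have hs' : Odd (orderOf s') := by
      refine (odd_orderOf hA s.2).of_dvd_nat (orderOf_dvd_of_pow_eq_one ?_)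
      have key : ∀ m : ℕ, ∀ e : D, (((s' ^ m) e : D) : V) = ((s : MulAut V) ^ m) e := by
        intro m
        induction m with
        | zero => intro e; rfl
        | succ m ih => intro e; rw [pow_succ', pow_succ', MulAut.mul_apply, MulAut.mul_apply, ← ih e]; rfl
      refine MulEquiv.ext fun e => Subtype.ext ?_
      rw [key, pow_orderOf_eq_one]
      rfl
    exact congrArg Subtype.val
      (fixes_of_index_le_two (hV.to_subgroup D) hs' (D := (fixSub ({(s : MulAut V)} : Set (MulAut V))).subgroupOf D)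
        (fun e he => Subtype.ext (mem_fixSub.1 (Subgroup.mem_subgroupOf.1 he) (s : MulAut V) rfl))
        hF ⟨e, he⟩)
  -- three elements in `D`
  obtain ⟨d₀, hd₀⟩ : ∃ d : D, d ≠ 1 := by
    haveI : Nontrivial D := Finite.one_lt_card_iff_nontrivial.1 (by omega)
    exact exists_ne 1
  have hd01 : (d₀ : V) ≠ 1 := fun h => hd₀ (Subtype.ext h)
  have horbD : MulAction.orbit A (d₀ : V) ⊆ (D : Set V) \ {1} := by
    rintro _ ⟨s, rfl⟩
    refine ⟨hDinv _ s.2 _ d₀.2, fun h => hd01 ?_⟩
    exact (s : MulAut V).injective ((Set.mem_singleton_iff.1 h).trans (map_one _).symm)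
  have hKidx : K.index = 3 ∧ MulAction.orbit A (d₀ : V) = (D : Set V) \ {1} := by
    have hcard : ((D : Set V) \ {1}).ncard = 3 := by
      rw [Set.ncard_diff_singleton_of_mem D.one_mem, ← Nat.card_coe_set_eq]
      change Nat.card D - 1 = 3
      omega
    have hidx : K.index = (MulAction.orbit A (d₀ : V)).ncard := by
      rw [← hstab _ d₀.2 hd01, MulAction.index_stabilizer]
    have hle : (MulAction.orbit A (d₀ : V)).ncard ≤ 3 :=
      hcard ▸ Set.ncard_le_ncard horbD (Set.toFinite _)
    have hoddi : Odd K.index := hA.of_dvd_nat K.index_dvd_card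
    have hne : K.index ≠ 1 := by
      intro h
      have htop := Subgroup.index_eq_one.1 h
      have : (d₀ : V) ∈ C := fun s hs =>
        (hK ⟨s, hs⟩).1 (htop ▸ Subgroup.mem_top _) _ d₀.2
      rw [hCbot, Subgroup.mem_bot] at this
      exact hd01 this
    have h3 : K.index = 3 := by
      obtain ⟨j, hj⟩ := hoddi
      omega
    exact ⟨h3, Set.eq_of_subset_of_ncard_le horbD (by omega) (Set.toFinite _)⟩
  -- the kernel is free on the cosets of `D`
  have hKfree : ∀ s ∈ K, ∀ w : V, w ∉ D → w⁻¹ * (s : MulAut V) w ∈ D → s = 1 := by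
    intro s hs w hw hmem
    have hso := odd_orderOf hA s.2
    have hsw := apply_eq_of_inv_mul_mem hV hso ((hK s).1 hs) hmem
    set F := fixSub ({(s : MulAut V)} : Set (MulAut V))
    have hDF : D < F := lt_of_le_of_ne (fun d hd u hu => by
        rw [Set.mem_singleton_iff.1 hu]; exact (hK s).1 hs d hd)
      fun h => hw (h ▸ fun u hu => by rw [Set.mem_singleton_iff.1 hu]; exact hsw)
    have hlt : F.index ≤ 2 := by
      have h1 := Subgroup.index_strictAnti hDF
      have h2 : F.index ∣ D.index := Subgroup.index_dvd_of_le hDF.le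
      rw [hD4'] at h1 h2
      have h3 : F.index ≠ 3 := fun h => by rw [h] at h2; norm_num at h2
      omega
    exact Subtype.ext (MulEquiv.ext fun u =>
      fixes_of_index_le_two hV hso (D := F) (fun d hd => mem_fixSub.1 hd (s : MulAut V) rfl) hlt u)
  haveI : D.Normal := inferInstance
  have hQ3 : (({1} : Set (V ⧸ D))ᶜ).ncard = 3 := by
    rw [Set.ncard_compl, Set.ncard_singleton, ← Subgroup.index_eq_card, hD4']
  have htK : (⟨t, htA⟩ : A) ∈ K := (hK _).2 hDt
  have hbij : ∀ w : V, w ∉ D → Set.range (fun s : K => (((s : A) : MulAut V) w : V ⧸ D)) = {1}ᶜ ∧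
      Nat.card K = 3 := by
    intro w hw
    set f := fun s : K => (((s : A) : MulAut V) w : V ⧸ D) with hf
    have hinj : Function.Injective f := by
      intro s s' h
      have hmem : w⁻¹ * (((s⁻¹ * s' : K) : A) : MulAut V) w ∈ D := by
        have h1 := QuotientGroup.eq.1 h
        set u := (((s : A) : MulAut V) w)⁻¹ * ((s' : A) : MulAut V) w with hu
        have h2 := hDinv _ ((s⁻¹ : K) : A).2 u h1
        rw [hu, map_mul, map_inv, ← MulAut.mul_apply, ← MulAut.mul_apply] at h2
        simpa using h2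
      have h3 := hKfree _ (s⁻¹ * s').2 w hw hmem
      exact inv_mul_eq_one.1 (Subtype.ext h3 : s⁻¹ * s' = 1)
    have hsub : Set.range f ⊆ {1}ᶜ := by
      rintro _ ⟨s, rfl⟩ h
      have h1 : ((s : A) : MulAut V) w ∈ D := (QuotientGroup.eq_one_iff _).1 h
      have h2 := hDinv _ ((s⁻¹ : K) : A).2 _ h1
      rw [← MulAut.mul_apply] at h2
      exact hw (by simpa using h2)
    have hcard : (Set.range f).ncard = Nat.card K := Set.ncard_range_of_injective hinj
    have hle : Nat.card K ≤ 3 := by
      rw [← hcard, ← hQ3]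
      exact Set.ncard_le_ncard hsub (Set.toFinite _)
    have hodd : Odd (Nat.card K) := hA.of_dvd_nat K.card_subgroup_dvd_card
    have hne : Nat.card K ≠ 1 := fun h => by
      have hbot := Subgroup.eq_bot_of_card_eq _ h
      rw [hbot, Subgroup.mem_bot] at htK
      exact ht1 (congrArg Subtype.val htK)
    have h3 : Nat.card K = 3 := by
      obtain ⟨j, hj⟩ := hodd
      omega
    exact ⟨Set.eq_of_subset_of_ncard_le hsub (by omega) (Set.toFinite _), h3⟩
  obtain ⟨w₀, hw₀⟩ : ∃ w, w ∉ D := by
    by_contra h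
    push Not at h
    rw [(Subgroup.eq_top_iff' D).2 h, Subgroup.index_top] at hD4'
    omega
  obtain ⟨-, hK3⟩ := hbij w₀ hw₀
  refine ⟨hV16', ?_, ?_⟩
  · -- squares are trivial
    have hDsq : ∀ d ∈ D, d ^ 2 = 1 := by
      obtain ⟨d₁, hd₁⟩ := exists_prime_orderOf_dvd_card' 2 (G := D) (by rw [hD4]; norm_num)
      have hd11 : (d₁ : V) ∈ (D : Set V) \ {1} := ⟨d₁.2, fun h => by
        have : d₁ = 1 := Subtype.ext h
        rw [this, orderOf_one] at hd₁; omega⟩
      intro d hd
      by_cases hd1 : d = 1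
      · rw [hd1, one_pow]
      have hdo : d ∈ (D : Set V) \ {1} := ⟨hd, hd1⟩
      rw [← hKidx.2] at hdo hd11
      obtain ⟨s, rfl⟩ := (MulAction.orbit_eq_iff.2 hd11 ▸ hdo : d ∈ MulAction.orbit A (d₁ : V))
      show ((s : MulAut V) d₁) ^ 2 = 1
      rw [← map_pow, ← Subgroup.coe_pow, ← hd₁, pow_orderOf_eq_one, OneMemClass.coe_one, map_one]
    set z := w₀⁻¹ * t w₀ with hz
    have hzD : z ∉ D := fun h =>
      ht1 (congrArg Subtype.val (hKfree _ htK w₀ hw₀ h))
    have hfixsq : ∀ u : V, u ∉ D → ∃ s ∈ K, ∃ d ∈ D, u = (s : MulAut V) z * d := by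
      intro u hu
      have h1 : (u : V ⧸ D) ∈ ({1}ᶜ : Set (V ⧸ D)) := fun h => hu ((QuotientGroup.eq_one_iff _).1 h)
      rw [← (hbij z hzD).1] at h1
      obtain ⟨s, hs⟩ := h1
      exact ⟨s, s.2, _, QuotientGroup.eq.1 hs, (mul_inv_cancel_left _ _).symm⟩
    have hw2 : w₀ ^ 2 ∈ D := by
      obtain ⟨q, hq⟩ := exists_prime_orderOf_dvd_card' 2 (G := V ⧸ D)
        (by rw [← Subgroup.index_eq_card, hD4']; norm_num)
      obtain ⟨y, rfl⟩ := QuotientGroup.mk_surjective q
      have hyD : y ∉ D := fun h => by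
        rw [(QuotientGroup.eq_one_iff _).2 h, orderOf_one] at hq; omega
      have hy2 : y ^ 2 ∈ D := by
        rw [← QuotientGroup.eq_one_iff, QuotientGroup.mk_pow, ← hq, pow_orderOf_eq_one]
      have h1 : (w₀ : V ⧸ D) ∈ ({1}ᶜ : Set (V ⧸ D)) := fun h =>
        hw₀ ((QuotientGroup.eq_one_iff _).1 h)
      rw [← (hbij y hyD).1] at h1
      obtain ⟨s, hs⟩ := h1
      rw [← mul_inv_cancel_left (((s : A) : MulAut V) y) w₀, mul_pow, ← map_pow]
      exact mul_mem (hDinv _ (s : A).2 _ hy2) (pow_mem (QuotientGroup.eq.1 hs) 2)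
    intro u
    by_cases hu : u ∈ D
    · exact hDsq u hu
    obtain ⟨s, hs, d, hd, rfl⟩ := hfixsq u hu
    rw [mul_pow, hDsq d hd, mul_one, ← map_pow, hz, mul_pow, inv_pow, ← map_pow,
      hDt _ hw2, inv_mul_cancel, map_one]
  · rw [← K.card_mul_index, hK3, hKidx.1]

end CfsgLib.Blocks.AbelianSmallTwo
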