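import Cfsg.Agent.Blocks.AbelianSmallTwo.Count
import Cfsg.Agent.S0215

/-!
# Fixed elements are central when the odd core is trivial
-/

set_option autoImplicit false
set_option linter.style.haveILetI false

namespace CfsgLib.Blocks.AbelianSmallTwo

open Cfsg CfsgLib

universe u

variable {G : Type u} [Group G] [Finite G]

/-- A quotient by a central `2`-subgroup has no nontrivial normal subgroup of odd order. -/
theorem eq_bot_of_odd_normal (hO : pPrimeCore 2 G = ⊥) (Z : Subgroup G) [Z.Normal]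
    (hZc : Z ≤ Subgroup.center G) (hZ : IsPGroup 2 Z) (N : Subgroup (G ⧸ Z)) [hN : N.Normal]
    (hodd : Odd (Nat.card N)) : N = ⊥ := by
  haveI : Fact (Nat.Prime 2) := ⟨Nat.prime_two⟩
  set π := QuotientGroup.mk' Z
  set Mx : Subgroup G := N.comap π with hMx
  haveI : Mx.Normal := hN.comap π
  let f : Mx →* N := (π.comp Mx.subtype).codRestrict N fun m => m.2
  have hfs : Function.Surjective f := by
    rintro ⟨y, hy⟩
    obtain ⟨g, rfl⟩ := QuotientGroup.mk'_surjective Z y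
    exact ⟨⟨g, hy⟩, rfl⟩
  have hker : ∀ m : Mx, m ∈ f.ker ↔ (m : G) ∈ Z := fun m => by
    rw [MonoidHom.mem_ker, ← QuotientGroup.eq_one_iff]
    exact Subtype.ext_iff
  have hkp : IsPGroup 2 f.ker := fun m => by
    obtain ⟨k, hk⟩ := hZ ⟨_, (hker m).1 m.2⟩
    exact ⟨k, Subtype.ext (Subtype.ext (by simpa [Subtype.ext_iff] using hk))⟩
  have hidx : f.ker.index = Nat.card N := by
    rw [Subgroup.index_ker, MonoidHom.range_eq_top.2 hfs, Subgroup.card_top]
  set S : Sylow 2 Mx := hkp.toSylow (by rw [hidx]; exact Nat.two_dvd_ne_zero.2 (Nat.odd_iff.1 hodd))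
  have hnpc : HasNormalPComplement 2 Mx :=
    Transfer.hasNormalPComplement_of_normalizer_le_centralizer S fun m _ =>
      Subgroup.mem_centralizer_iff.2 fun z hz => Subtype.ext
        (Subgroup.mem_center_iff.1 (hZc ((hker z).1 hz)) (m : G)).symm
  obtain ⟨H, hH, hc, k, hk⟩ := Transfer.hasNormalPComplement_iff_exists.1 hnpc
  haveI := hH
  have hHn : (H.map Mx.subtype).Normal := by
    refine ⟨fun x hx g => ?_⟩
    obtain ⟨h, hh, rfl⟩ := hx
    have hm : g * (h : G) * g⁻¹ ∈ Mx := Subgroup.Normal.conj_mem inferInstance _ h.2 g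
    refine ⟨⟨_, hm⟩, (Transfer.mem_iff_coprime_of_pPower_index hc hk _).2 ?_, rfl⟩
    have e : orderOf (⟨_, hm⟩ : Mx) = orderOf h := by
      rw [Subgroup.orderOf_mk, ← MulAut.conj_apply, MulEquiv.orderOf_eq, Subgroup.orderOf_coe]
    rw [e]
    exact (Transfer.mem_iff_coprime_of_pPower_index hc hk h).1 hh
  have hHbot : H.map Mx.subtype = ⊥ := le_bot_iff.1 (hO ▸ le_sSup ⟨hHn, by
    rw [Constrained.card_map_of_injective _ Subtype.val_injective]; exact hc⟩)
  have hH1 : H = ⊥ := (Subgroup.map_eq_bot_iff_of_injective _ Subtype.val_injective).1 hHbot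
  have hM2 : IsPGroup 2 Mx := IsPGroup.of_card (n := k) (by
    rw [← H.card_mul_index, hH1, Subgroup.card_bot, one_mul, ← hH1, hk])
  have hN2 : IsPGroup 2 N := hM2.of_surjective f hfs
  obtain ⟨j, hj⟩ := IsPGroup.iff_card.1 hN2
  refine Subgroup.eq_bot_of_card_eq _ ?_
  rcases Nat.eq_zero_or_pos j with rfl | hj0
  · simpa using hj
  · exact absurd hodd (by
      rw [hj, Nat.not_odd_iff_even]
      exact Nat.even_pow.2 ⟨even_two, hj0.ne'⟩)

variable {P : Sylow 2 G}

/-- Fixed elements of an abelian Sylow `2`-subgroup are isolated. -/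
theorem eq_of_conj_mem (hab : IsMulCommutative (P : Subgroup G)) {v : G} (hv : v ∈ fixedPart P)
    {g : G} (hg : g * v * g⁻¹ ∈ (P : Subgroup G)) : g * v * g⁻¹ = v := by
  haveI : Fact (Nat.Prime 2) := ⟨Nat.prime_two⟩
  obtain ⟨n, hn, e⟩ := exists_normalizer_conj P hab hv.1 hg (isConj_iff.2 ⟨g, rfl⟩)
  rw [← e]
  exact hv.2 n hn

/-- **Fixed elements are central.** -/
theorem fixedPart_le_center (hab : IsMulCommutative (P : Subgroup G)) (hO : pPrimeCore 2 G = ⊥) :
    fixedPart P ≤ Subgroup.center G := by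
  classical
  haveI : Fact (Nat.Prime 2) := ⟨Nat.prime_two⟩
  suffices h : ∀ o : ℕ, ∀ v ∈ fixedPart P, orderOf v = o → v ∈ Subgroup.center G from
    fun v hv => h _ v hv rfl
  intro o
  induction o using Nat.strong_induction_on with
  | _ o ih =>
    intro v hv ho
    by_cases hv1 : v = 1
    · rw [hv1]; exact one_mem _
    obtain ⟨k, hk⟩ := IsPGroup.iff_orderOf.1 P.2 ⟨v, hv.1⟩
    rw [Subgroup.orderOf_mk] at hk
    have hk0 : k ≠ 0 := fun h => hv1 (orderOf_eq_one_iff.1 (by rw [hk, h, pow_zero]))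
    have ho2 : orderOf (v ^ 2) < o := by
      rw [← ho, orderOf_pow' v two_ne_zero, hk, Nat.gcd_eq_right (dvd_pow_self 2 hk0)]
      exact Nat.div_lt_self (pow_pos two_pos k) one_lt_two
    have hv2 : v ^ 2 ∈ Subgroup.center G := ih _ ho2 _ (pow_mem hv 2) rfl
    set Z := Subgroup.zpowers (v ^ 2) with hZdef
    have hZc : Z ≤ Subgroup.center G := Subgroup.zpowers_le.2 hv2
    by_cases hvZ : v ∈ Z
    · exact hZc hvZ
    haveI hZn : Z.Normal := ⟨fun z hz g => by
      rw [Subgroup.mem_center_iff.1 (hZc hz) g, mul_inv_cancel_right]; exact hz⟩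
    have hZP : Z ≤ (P : Subgroup G) := Subgroup.zpowers_le.2 (pow_mem hv.1 2)
    have hπ := QuotientGroup.mk'_surjective Z
    set T := P.mapSurjective hπ
    have hu : orderOf ((v : G) : G ⧸ Z) = 2 :=
      orderOf_eq_prime (by
        rw [← QuotientGroup.mk_pow, QuotientGroup.eq_one_iff]; exact Subgroup.mem_zpowers _)
        fun h => hvZ ((QuotientGroup.eq_one_iff _).1 h)
    have huT : ((v : G) : G ⧸ Z) ∈ T := by
      show _ ∈ ((P.mapSurjective hπ : Sylow 2 (G ⧸ Z)) : Subgroup (G ⧸ Z))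
      rw [Sylow.coe_mapSurjective]
      exact ⟨v, hv.1, rfl⟩
    have hsat : ∀ y : G, ((y : G) : G ⧸ Z) ∈ T → y ∈ (P : Subgroup G) := by
      intro y hy
      have hy' : ((y : G) : G ⧸ Z) ∈ ((P.mapSurjective hπ : Sylow 2 (G ⧸ Z)) : Subgroup (G ⧸ Z)) := hy
      rw [Sylow.coe_mapSurjective] at hy'
      obtain ⟨w, hw, e⟩ := hy'
      have hz : w⁻¹ * y ∈ Z := QuotientGroup.eq.1 e
      rw [show y = w * (w⁻¹ * y) by group]
      exact mul_mem hw (hZP hz)
    obtain ⟨N, hN, hodd, hcomm⟩ := Cfsg.Agent.S0215.result T _ hu huT fun a ha => by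
      obtain ⟨g, rfl⟩ := hπ a
      show QuotientGroup.mk' Z g * QuotientGroup.mk' Z v * (QuotientGroup.mk' Z g)⁻¹ = _
      rw [← map_inv, ← map_mul, ← map_mul, eq_of_conj_mem hab hv (hsat _ ha)]
      rfl
    haveI := hN
    have hNbot := eq_bot_of_odd_normal hO Z hZc (P.2.to_le hZP) N hodd
    refine Subgroup.mem_center_iff.2 fun g => ?_
    have hc := hcomm ((g : G) : G ⧸ Z)
    rw [hNbot, Subgroup.mem_bot] at hc
    have hmem : v * g * v⁻¹ * g⁻¹ ∈ Z := (QuotientGroup.eq_one_iff _).1 hc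
    have hgP : g * v * g⁻¹ ∈ (P : Subgroup G) := by
      rw [show g * v * g⁻¹ = (v⁻¹ * (v * g * v⁻¹ * g⁻¹))⁻¹ by group]
      exact inv_mem (mul_mem (inv_mem hv.1) (hZP hmem))
    exact mul_inv_eq_iff_eq_mul.1 (eq_of_conj_mem hab hv hgP)

end CfsgLib.Blocks.AbelianSmallTwo
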