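import Cfsg.Agent.Blocks.AbelianSmallTwo.Transfer
import Cfsg.Agent.Blocks.RankFourNine.Count

/-!
# Brauer's count for an abelian Sylow subgroup with a central fixed-point subgroup and free action
outside it
-/

set_option autoImplicit false
set_option linter.style.haveILetI false

namespace CfsgLib.Blocks.AbelianSmallTwo

open Cfsg CfsgLib

universe u

/-- Orbits of a group acting with points either fixed or with trivial stabilizer. -/
theorem card_orbits {A X : Type*} [Group A] [Finite A] [MulAction A X] [Finite X] (F : Set X)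
    (hF : ∀ x ∈ F, ∀ a : A, a • x = x) (hfree : ∀ x, x ∉ F → ∀ a : A, a • x = x → a = 1) :
    ∃ n : ℕ, Nat.card X = F.ncard + Nat.card A * n ∧
      ∀ [Fintype (MulAction.orbitRel.Quotient A X)] (L : ℕ) [DecidablePred (· ∈ F)],
        (∑ q : MulAction.orbitRel.Quotient A X, if q.out ∈ F then L else 1) = F.ncard * L + n := by
  classical
  haveI := Fintype.ofFinite (MulAction.orbitRel.Quotient A X)
  haveI := Fintype.ofFinite X
  set Qc := Finset.univ.filter (fun q : MulAction.orbitRel.Quotient A X => q.out ∈ F) with hQc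
  set Qn := Finset.univ.filter (fun q : MulAction.orbitRel.Quotient A X => ¬ q.out ∈ F) with hQn
  have hout : ∀ x ∈ F, (Quotient.mk'' x : MulAction.orbitRel.Quotient A X).out = x := by
    intro x hx
    have h : MulAction.orbitRel A X (Quotient.mk'' x : MulAction.orbitRel.Quotient A X).out x :=
      Quotient.mk_out x
    obtain ⟨a, ha⟩ := h
    rw [← ha]
    exact hF x hx a
  have hQcard : Qc.card = F.ncard := by
    rw [Set.ncard_eq_toFinset_card']
    refine Finset.card_bij (fun q _ => q.out) (fun q hq => ?_) (fun q _ q' _ h => Quotient.out_inj.1 h)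
      (fun x hx => ?_)
    · rw [Set.mem_toFinset]
      exact (Finset.mem_filter.1 hq).2
    · rw [Set.mem_toFinset] at hx
      exact ⟨Quotient.mk'' x, Finset.mem_filter.2 ⟨Finset.mem_univ _, by rw [hout x hx]; exact hx⟩,
        hout x hx⟩
  refine ⟨Qn.card, ?_, fun L => ?_⟩
  · have horb : ∀ q : MulAction.orbitRel.Quotient A X, Nat.card (MulAction.orbit A q.out) =
        if q.out ∈ F then 1 else Nat.card A := by
      intro q
      split_ifs with h
      · rw [Nat.card_coe_set_eq, show MulAction.orbit A q.out = {q.out} from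
          Set.eq_singleton_iff_unique_mem.2 ⟨MulAction.mem_orbit_self _,
            fun y ⟨a, ha⟩ => ha ▸ hF _ h a⟩, Set.ncard_singleton]
      · have hb : MulAction.stabilizer A q.out = ⊥ :=
          (Subgroup.eq_bot_iff_forall _).2 fun a ha => hfree _ h a ha
        rw [Nat.card_coe_set_eq, ← MulAction.index_stabilizer, hb, Subgroup.index_bot]
    rw [Nat.card_congr (MulAction.selfEquivSigmaOrbits A X), Nat.card_sigma,
      Finset.sum_congr rfl fun q _ => horb q, Finset.sum_ite, ← hQc, ← hQn, Finset.sum_const,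
      Finset.sum_const, hQcard, smul_eq_mul, smul_eq_mul, mul_one, mul_comm]
  · intro _
    rw [Finset.sum_ite, Finset.sum_const, Finset.sum_const, smul_eq_mul, smul_eq_mul, mul_one,
      ← hQcard]
    congr 1
    · congr 2
      ext q; simp [hQc]
    · congr 1
      ext q; simp [hQn]

variable {G : Type u} [Group G] [Finite G] {M : Ideal AlgInt} {p : ℕ} [Fact p.Prime] (P : Sylow p G)

/-- The elements of `P` fixed by its normalizer. -/
def fixedPart : Subgroup G where
  carrier := {v | v ∈ (P : Subgroup G) ∧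
    ∀ n ∈ Subgroup.normalizer ((P : Subgroup G) : Set G), n * v * n⁻¹ = v}
  one_mem' := ⟨one_mem _, fun n _ => by group⟩
  mul_mem' := fun {a b} ha hb => ⟨mul_mem ha.1 hb.1, fun n hn => by
    rw [← conj_mul, ha.2 n hn, hb.2 n hn]⟩
  inv_mem' := fun {a} ha => ⟨inv_mem ha.1, fun n hn => by
    rw [← conj_inv, ha.2 n hn]⟩

omit [Finite G] [Fact p.Prime] in
theorem mem_fixedPart {v : G} : v ∈ fixedPart P ↔ v ∈ (P : Subgroup G) ∧
    ∀ n ∈ Subgroup.normalizer ((P : Subgroup G) : Set G), n * v * n⁻¹ = v := Iff.rfl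

omit [Finite G] [Fact p.Prime] in
theorem fixedPart_le : fixedPart P ≤ (P : Subgroup G) := fun _ h => h.1

/-- The automorphisms of `P` induced by its normalizer. -/
abbrev autN : Subgroup (MulAut (P : Subgroup G)) := (P : Subgroup G).normalizerMonoidHom.range

omit [Finite G] [Fact p.Prime] in
theorem card_autN :
    Nat.card (autN P) = (Subgroup.centralizer ((P : Subgroup G) : Set G)).relIndex
      (Subgroup.normalizer ((P : Subgroup G) : Set G)) := by
  rw [autN, ← Subgroup.index_ker, Subgroup.normalizerMonoidHom_ker]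
  rfl

omit [Finite G] [Fact p.Prime] in
theorem normalizerMonoidHom_coe (n : Subgroup.normalizer ((P : Subgroup G) : Set G))
    (v : (P : Subgroup G)) :
    (((P : Subgroup G).normalizerMonoidHom n v : (P : Subgroup G)) : G) = n * v * (n : G)⁻¹ := rfl

/-- Conjugate elements of an abelian Sylow subgroup are conjugate in its normalizer. -/
theorem exists_normalizer_conj (hab : IsMulCommutative (P : Subgroup G)) {v w : G}
    (hv : v ∈ (P : Subgroup G)) (hw : w ∈ (P : Subgroup G)) (h : IsConj v w) :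
    ∃ n ∈ Subgroup.normalizer ((P : Subgroup G) : Set G), n * v * n⁻¹ = w := by
  haveI := hab
  obtain ⟨g, hg⟩ := isConj_iff.1 h
  obtain ⟨n, hn, e⟩ := Sylow.conj_eq_normalizer_conj_of_mem P v g⁻¹ hv (by rw [inv_inv, hg]; exact hw)
  rw [inv_inv, hg] at e
  refine ⟨n⁻¹, inv_mem hn, ?_⟩
  rw [inv_inv]
  exact e.symm

/-- **The count.** -/
theorem exists_count {P : Sylow 2 G} (hM : IsPModular 2 M) (hab : IsMulCommutative (P : Subgroup G))
    (hcen : fixedPart P ≤ Subgroup.center G)
    (hfree : ∀ n ∈ Subgroup.normalizer ((P : Subgroup G) : Set G), ∀ v ∈ (P : Subgroup G),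
      v ∉ fixedPart P → n * v * n⁻¹ = v → n ∈ Subgroup.centralizer ((P : Subgroup G) : Set G)) :
    ∃ n : ℕ, Nat.card P = Nat.card (fixedPart P) +
        (Subgroup.centralizer ((P : Subgroup G) : Set G)).relIndex
          (Subgroup.normalizer ((P : Subgroup G) : Set G)) * n ∧
      Nat.card (principalBlock M G) =
        Nat.card (fixedPart P) * blockRank 2 (principalBlock M G) + n := by
  classical
  haveI : Fact (Nat.Prime 2) := ⟨Nat.prime_two⟩
  have := isMaximal_of_isPModular hM
  have hB : IsPBlock M (principalBlock M G) := PrincipalLinear.isPBlock_principal M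
  set A := autN P
  set F : Set (P : Subgroup G) := {v | (v : G) ∈ fixedPart P} with hFdef
  have hF : ∀ x ∈ F, ∀ a : A, a • x = x := by
    rintro x hx ⟨_, n, rfl⟩
    exact Subtype.ext ((mem_fixedPart P).1 hx |>.2 n n.2)
  have hfr : ∀ x, x ∉ F → ∀ a : A, a • x = x → a = 1 := by
    rintro x hx ⟨_, n, rfl⟩ ha
    have h1 : (n : G) * x * (n : G)⁻¹ = x := congrArg Subtype.val ha
    have h2 := mem_centralizer_iff_fix.1 (hfree n n.2 x x.2 hx h1)
    exact Subtype.ext (MulEquiv.ext fun v => Subtype.ext (h2 v v.2))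
  haveI := Fintype.ofFinite (MulAction.orbitRel.Quotient A (P : Subgroup G))
  obtain ⟨n, hn, hsum⟩ := card_orbits F hF hfr
  have hFcard : F.ncard = Nat.card (fixedPart P) := by
    rw [← Nat.card_coe_set_eq]
    exact Nat.card_congr
      { toFun := fun v => ⟨v.1, v.2⟩
        invFun := fun v => ⟨⟨v.1, fixedPart_le P v.2⟩, v.2⟩
        left_inv := fun v => rfl
        right_inv := fun v => rfl }
  refine ⟨n, by rw [← card_autN, ← hFcard]; exact hn, ?_⟩
  set X : Finset G := Finset.univ.image
    fun q : MulAction.orbitRel.Quotient A (P : Subgroup G) => ((q.out : (P : Subgroup G)) : G)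
    with hXdef
  have hX : ∀ x ∈ X, ∃ k : ℕ, orderOf x = 2 ^ k := by
    intro x hx
    obtain ⟨q, -, rfl⟩ := Finset.mem_image.1 hx
    obtain ⟨k, hk⟩ := IsPGroup.iff_orderOf.1 P.2 q.out
    exact ⟨k, by rw [Subgroup.orderOf_coe, hk]⟩
  have hrep : ∀ g : G, (∃ k : ℕ, orderOf g = 2 ^ k) → ∃! x, x ∈ X ∧ IsConj g x := by
    rintro g ⟨k, hk⟩
    obtain ⟨Q, hQ⟩ := (IsPGroup.of_card (n := k) (by rw [Nat.card_zpowers, hk] :
      Nat.card (Subgroup.zpowers g) = 2 ^ k)).exists_le_sylow
    obtain ⟨c, hc⟩ := MulAction.exists_smul_eq G Q P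
    have hmem : c * g * c⁻¹ ∈ (P : Subgroup G) := by
      rw [← hc]
      exact Subgroup.smul_mem_pointwise_smul g (MulAut.conj c) _ (hQ (Subgroup.mem_zpowers g))
    set v : (P : Subgroup G) := ⟨c * g * c⁻¹, hmem⟩ with hv
    have hgv : IsConj g (v : G) := isConj_iff.2 ⟨c, rfl⟩
    set q : MulAction.orbitRel.Quotient A (P : Subgroup G) := Quotient.mk'' v with hq
    have hqv : IsConj (v : G) (q.out : G) := by
      obtain ⟨a, ha⟩ := (Quotient.mk_out v : MulAction.orbitRel A (P : Subgroup G) q.out v)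
      obtain ⟨_, m, rfl⟩ := a
      rw [← ha]
      exact isConj_iff.2 ⟨(m : G), rfl⟩
    refine ⟨(q.out : G), ⟨Finset.mem_image_of_mem _ (Finset.mem_univ q), hgv.trans hqv⟩, ?_⟩
    rintro y ⟨hy, hgy⟩
    obtain ⟨r, -, rfl⟩ := Finset.mem_image.1 hy
    obtain ⟨m, hm, e⟩ := exists_normalizer_conj P hab (q.out).2 (r.out).2
      ((hgv.trans hqv).symm.trans hgy)
    congr 2
    rw [← Quotient.out_eq' r, ← Quotient.out_eq' q]
    exact Quotient.sound' ⟨⟨_, ⟨m, hm⟩, rfl⟩, Subtype.ext e⟩
  rw [natCard_block_eq_sum_blockRank hM hB X hX hrep, hXdef,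
    Finset.sum_image fun a _ b _ h => Quotient.out_inj.1 (Subtype.ext h), ← hFcard, ← hsum]
  refine Finset.sum_congr rfl fun q _ => ?_
  obtain ⟨k, hk⟩ := hX _ (Finset.mem_image_of_mem _ (Finset.mem_univ q))
  split_ifs with h
  · exact KleinFour.sum_rank_central hM hB ⟨k, hk⟩ (hcen h)
  · set v : G := (q.out : G)
    have hPv : (P : Subgroup G) ≤ Subgroup.centralizer ({v} : Set G) := fun x hx =>
      Subgroup.mem_centralizer_singleton_iff.2
        (congrArg Subtype.val (hab.is_comm.comm (⟨x, hx⟩ : (P : Subgroup G)) q.out))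
    refine (RankFourNine.finsum_rank_principal hM ⟨k, hk⟩).trans
      (PrincipalPair.rank_one_of_hasNormalPComplement hM
        (Transfer.hasNormalPComplement_of_normalizer_le_centralizer (P.subtype hPv) fun m hm => ?_))
    rw [← Sylow.coe_coe, Sylow.coe_subtype P hPv, ← Subgroup.subgroupOf_normalizer_eq hPv,
      Subgroup.mem_subgroupOf] at hm
    have hc := hfree m hm v q.out.2 h
      (mul_inv_eq_iff_eq_mul.2 (Subgroup.mem_centralizer_singleton_iff.1 m.2))
    rw [Subgroup.mem_centralizer_iff] at hc ⊢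
    intro x hx
    rw [← Sylow.coe_coe, Sylow.coe_subtype P hPv] at hx
    exact Subtype.ext (hc _ hx)

end CfsgLib.Blocks.AbelianSmallTwo
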