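import Cfsg.Agent.Blocks.RankFourNine.Rank
import Cfsg.Agent.Blocks.Orth.PrincipalGalois

/-!
# Sylow normalizers in quotients and the principal block modulo the `p'`-core
-/

set_option autoImplicit false
set_option linter.style.haveILetI false

namespace CfsgLib.Blocks.AbelianSmallTwo

open Cfsg CfsgLib

universe u v

variable {G : Type u} [Group G] [Finite G] {H : Type v} [Group H] {p : ℕ} [Fact p.Prime]

/-- Nonidentity elements of `P` have trivial stabilizers in `N(P)` modulo `C(P)`. -/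
def IsFree (P : Subgroup G) : Prop :=
  ∀ n ∈ Subgroup.normalizer (P : Set G), ∀ v ∈ P, v ≠ 1 → n * v * n⁻¹ = v →
    n ∈ Subgroup.centralizer (P : Set G)

omit [Finite G] in
theorem mem_centralizer_iff_fix {P : Subgroup G} {n : G} :
    n ∈ Subgroup.centralizer (P : Set G) ↔ ∀ v ∈ P, n * v * n⁻¹ = v := by
  rw [Subgroup.mem_centralizer_iff]
  exact forall₂_congr fun v _ => ⟨fun h => by rw [← h, mul_inv_cancel_right],
    fun h => by rw [mul_inv_eq_iff_eq_mul] at h; exact h.symm⟩

/-- Elements of the normalizer of the image of a Sylow subgroup lift to the normalizer. -/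
theorem exists_normalizer_lift {π : G →* H} (hπ : Function.Surjective π) (P : Sylow p G) {h : H}
    (hh : h ∈ Subgroup.normalizer ((P.mapSurjective hπ : Subgroup H) : Set H)) :
    ∃ n ∈ Subgroup.normalizer ((P : Subgroup G) : Set G), π n = h := by
  obtain ⟨g, rfl⟩ := hπ h
  rw [Sylow.coe_mapSurjective] at hh
  set S := ((P : Subgroup G).map π).comap π with hS
  have hPS : (P : Subgroup G) ≤ S := Subgroup.le_comap_map _ _
  have hgS : ((g • P : Sylow p G) : Subgroup G) ≤ S := by
    intro x hx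
    rw [Sylow.coe_subgroup_smul] at hx
    obtain ⟨y, hy, rfl⟩ := hx
    show π (g * y * g⁻¹) ∈ (P : Subgroup G).map π
    rw [map_mul, map_mul, map_inv]
    exact (Subgroup.mem_normalizer_iff.1 hh _).1 ⟨y, hy, rfl⟩
  obtain ⟨c, hc⟩ := MulAction.exists_smul_eq S ((g • P : Sylow p G).subtype hgS) (P.subtype hPS)
  rw [Sylow.smul_subtype] at hc
  have hc2 := Sylow.subtype_injective hc
  have hcg : (c : G) * g ∈ Subgroup.normalizer ((P : Subgroup G) : Set G) := by
    refine Sylow.smul_eq_iff_mem_normalizer.mp ?_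
    rw [mul_smul]
    exact hc2
  obtain ⟨y, hy, hyc⟩ := (c.2 : π (c : G) ∈ (P : Subgroup G).map π)
  refine ⟨y⁻¹ * ((c : G) * g), mul_mem (inv_mem (Subgroup.le_normalizer hy)) hcg, ?_⟩
  rw [map_mul, map_mul, map_inv, hyc, inv_mul_cancel_left]

/-- The image of the normalizer. -/
theorem map_mem_normalizer {π : G →* H} (hπ : Function.Surjective π) (P : Sylow p G) {n : G}
    (hn : n ∈ Subgroup.normalizer ((P : Subgroup G) : Set G)) :
    π n ∈ Subgroup.normalizer ((P.mapSurjective hπ : Subgroup H) : Set H) := by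
  rw [Sylow.coe_mapSurjective]
  exact Subgroup.le_normalizer_map π ⟨n, hn, rfl⟩

section separated

variable {π : G →* H} (hπ : Function.Surjective π) (P : Sylow p G)
  (hsep : ∀ n ∈ Subgroup.normalizer ((P : Subgroup G) : Set G), ∀ v ∈ (P : Subgroup G),
    π (n * v * n⁻¹) = π v → n * v * n⁻¹ = v)

include hsep

theorem map_mem_centralizer_iff {n : G}
    (hn : n ∈ Subgroup.normalizer ((P : Subgroup G) : Set G)) :
    π n ∈ Subgroup.centralizer ((P.mapSurjective hπ : Subgroup H) : Set H) ↔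
      n ∈ Subgroup.centralizer ((P : Subgroup G) : Set G) := by
  rw [mem_centralizer_iff_fix, mem_centralizer_iff_fix, Sylow.coe_mapSurjective]
  refine ⟨fun h v hv => hsep n hn v hv ?_, ?_⟩
  · rw [map_mul, map_mul, map_inv]
    exact h _ ⟨v, hv, rfl⟩
  · rintro h _ ⟨v, hv, rfl⟩
    rw [← map_inv, ← map_mul, ← map_mul, h v hv]

theorem relIndex_map :
    (Subgroup.centralizer ((P.mapSurjective hπ : Subgroup H) : Set H)).relIndex
      (Subgroup.normalizer ((P.mapSurjective hπ : Subgroup H) : Set H)) =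
    (Subgroup.centralizer ((P : Subgroup G) : Set G)).relIndex
      (Subgroup.normalizer ((P : Subgroup G) : Set G)) := by
  set N := Subgroup.normalizer ((P : Subgroup G) : Set G)
  set N' := Subgroup.normalizer ((P.mapSurjective hπ : Subgroup H) : Set H)
  let f : N →* N' := (π.comp N.subtype).codRestrict N' fun n => map_mem_normalizer hπ P n.2
  have hf : Function.Surjective f := fun h => by
    obtain ⟨n, hn, e⟩ := exists_normalizer_lift hπ P h.2
    exact ⟨⟨n, hn⟩, Subtype.ext e⟩
  unfold Subgroup.relIndex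
  rw [← Subgroup.index_comap_of_surjective _ hf]
  congr 1
  ext n
  exact map_mem_centralizer_iff hπ P hsep n.2

theorem isFree_map (hfree : ∀ n ∈ Subgroup.normalizer ((P : Subgroup G) : Set G),
      ∀ v ∈ (P : Subgroup G), π v ≠ 1 → n * v * n⁻¹ = v →
        n ∈ Subgroup.centralizer ((P : Subgroup G) : Set G)) :
    IsFree (P.mapSurjective hπ : Subgroup H) := by
  intro h hh w hw hw1 hfix
  obtain ⟨n, hn, rfl⟩ := exists_normalizer_lift hπ P hh
  rw [Sylow.coe_mapSurjective] at hw
  obtain ⟨v, hv, rfl⟩ := hw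
  rw [← map_inv, ← map_mul, ← map_mul] at hfix
  exact (map_mem_centralizer_iff hπ P hsep hn).2 (hfree n hn v hv hw1 (hsep n hn v hv hfix))

end separated

/-- A homomorphism with kernel of order prime to `p` separates the elements of a `p`-subgroup. -/
theorem eq_of_map_eq {π : G →* H} (hker : ¬ p ∣ Nat.card π.ker) {P : Subgroup G} (hP : IsPGroup p P)
    {a b : G} (ha : a ∈ P) (hb : b ∈ P) (h : π a = π b) : a = b := by
  have hk : a⁻¹ * b ∈ π.ker := by rw [MonoidHom.mem_ker, map_mul, map_inv, h, inv_mul_cancel]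
  obtain ⟨k, hk2⟩ := hP ⟨a⁻¹ * b, mul_mem (inv_mem ha) hb⟩
  have hd1 : orderOf (a⁻¹ * b) ∣ p ^ k := orderOf_dvd_of_pow_eq_one (congrArg Subtype.val hk2)
  have hd2 : orderOf (a⁻¹ * b) ∣ Nat.card π.ker := Subgroup.orderOf_dvd_natCard _ hk
  exact inv_mul_eq_one.1 (orderOf_eq_one_iff.1 (Nat.eq_one_of_dvd_coprimes
    (((Fact.out : p.Prime).coprime_iff_not_dvd.2 hker).pow_left k) hd1 hd2))

theorem mapSurjective_card {π : G →* H} (hπ : Function.Surjective π) (hker : ¬ p ∣ Nat.card π.ker)
    (P : Sylow p G) : Nat.card (P.mapSurjective hπ) = Nat.card P := by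
  show Nat.card ((P.mapSurjective hπ : Sylow p H) : Subgroup H) = _
  rw [Sylow.coe_mapSurjective]
  symm
  refine Nat.card_congr (Equiv.ofBijective
    (fun v => ⟨π v, ⟨v, v.2, rfl⟩⟩ : ↥(P : Subgroup G) → ↥((P : Subgroup G).map π)) ⟨?_, ?_⟩)
  · exact fun a b h => Subtype.ext (eq_of_map_eq hker P.2 a.2 b.2 (congrArg Subtype.val h))
  · rintro ⟨_, v, hv, rfl⟩
    exact ⟨⟨v, hv⟩, rfl⟩

omit [Fact p.Prime] in
/-- The principal block has as many characters as that of the quotient by a normal `p'`-subgroup. -/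
theorem natCard_principal_quotient {M : Ideal AlgInt} (hM : IsPModular p M) (N : Subgroup G)
    [N.Normal] (hN : ¬ p ∣ Nat.card N) :
    Nat.card (principalBlock M G) = Nat.card (principalBlock M (G ⧸ N)) := by
  classical
  haveI := hM.2.1
  haveI := Fintype.ofFinite G
  haveI := Fintype.ofFinite (G ⧸ N)
  symm
  refine Nat.card_congr (Equiv.ofBijective
    (fun ψ => ⟨Chars.inflate N ψ.1, (Orth.inflate_mem_principalBlock_iff hM N hN _).2 ψ.2⟩ :
      principalBlock M (G ⧸ N) → principalBlock M G) ⟨?_, ?_⟩)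
  · exact fun a b h => Subtype.ext (Chars.inflate_injective N (congrArg Subtype.val h))
  · rintro ⟨χ, hχ⟩
    obtain ⟨ψ, rfl⟩ := Chars.exists_inflate_eq N χ (le_charKer_of_mem_principalBlock N hM hN hχ)
    exact ⟨⟨ψ, (Orth.inflate_mem_principalBlock_iff hM N hN _).1 hχ⟩, rfl⟩

end CfsgLib.Blocks.AbelianSmallTwo
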